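import Cfsg.Agent.R2.T1.N6C.Ker

/-!
# S5929, `n = 6`, `p = 3`, box C2: numbers of pure vectors and of triples (helper14)
-/

set_option autoImplicit false
set_option maxRecDepth 100000

namespace Cfsg.Agent.R2.T1.N6C

open Cfsg Cfsg.Lie Matrix
open Cfsg.Agent.ChevalleyStructure.RootVec
open Cfsg.Agent.ChevalleyStructure.StEmbed
open Cfsg.Agent.R2.T1 Cfsg.Agent.R2.PX
open Cfsg.Agent.H943.E7V.Block (D1 rho)

universe u
variable {F : Type u} [Field F]

theorem card_D1 : Nat.card D1 = 56 := by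
  rw [Nat.card_eq_fintype_card]
  decide +kernel

omit [Field F] in
theorem card_V [Finite F] : Nat.card (D1 → F) = Nat.card F ^ 56 := by
  rw [Nat.card_fun, card_D1]

/-- fibres -/
theorem card_fib_of [Finite F] {e : D1 → F} {S : Finset D1} (g : Gh F)
    (hS : ∀ f, DD F (V F g e) f = 0 → (∀ n ∈ S, f n = 0) → f = 0) (X : Matrix D1 D1 F) :
    Nat.card {f : D1 → F // DD F e f = X} ≤ Nat.card F ^ S.card := by
  have h1 : Nat.card (↥S → F) = Nat.card F ^ S.card := by
    rw [Nat.card_fun, Nat.card_eq_fintype_card (α := ↥S), Fintype.card_coe]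
  rw [← h1]
  refine Nat.card_le_card_of_injective (fun f : {f : D1 → F // DD F e f = X} => fun n : ↥S => V F g f.1 n.1) ?_
  rintro ⟨f, hf⟩ ⟨f', hf'⟩ h
  have h3 : V F g (f - f') = 0 := by
    refine hS _ ?_ fun n hn => ?_
    · rw [Mu.DD_V_iff, sub_eq_add_neg, ← neg_one_smul F f', DD_add_right, DD_smul_right, hf, hf', neg_one_smul, add_neg_cancel]
    · have h4 := congrFun h ⟨n, hn⟩
      rw [map_sub, Pi.sub_apply]
      exact sub_eq_zero.2 h4
  apply Subtype.ext
  have h4 := congrArg (V F g⁻¹) h3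
  rw [Mu.inv_V, map_zero] at h4
  exact sub_eq_zero.1 h4

theorem card_fib [Finite F] (h2 : (2 : F) ≠ 0) {e : D1 → F} (hp : ¬ Pure F e) (X : Matrix D1 D1 F) :
    Nat.card {f : D1 → F // DD F e f = X} ≤ Nat.card F ^ 12 := by
  have he : e ≠ 0 := by
    rintro rfl
    exact hp Mu.pure_zero
  obtain ⟨g, h3, h4⟩ := exists_nf he topv
  obtain ⟨S, hS, h5⟩ := ker_aux h2 h3 h4 (fun h => hp ((Mu.pure_V_iff g).1 h))
  exact (card_fib_of g h5 X).trans (Nat.pow_le_pow_right Nat.card_pos hS)

theorem card_fib_pure [Finite F] (h2 : (2 : F) ≠ 0) {e : D1 → F} (hp : Pure F e) (he : e ≠ 0) (X : Matrix D1 D1 F) :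
    Nat.card {f : D1 → F // DD F e f = X} ≤ Nat.card F ^ 28 := by
  obtain ⟨g, c, hc, h3⟩ := Mu.pure_top h2 hp he
  refine (card_fib_of (S := Finset.univ.filter fun n : D1 => p2 n topv = 1 ∨ p2 n topv = 3) g (fun f hf hS => ?_) X).trans
    (Nat.pow_le_pow_right Nat.card_pos (card28 topv))
  rw [h3, DD_smul_left, smul_eq_zero] at hf
  obtain ⟨h4, h5⟩ := Mu.top_zero h2 (hf.resolve_left hc)
  funext n
  rw [Pi.zero_apply]
  rcases p2_cases n topv with h8 | h8 | h8 | h8
  · exact hS n (Finset.mem_filter.2 ⟨Finset.mem_univ _, Or.inr h8⟩)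
  · exact hS n (Finset.mem_filter.2 ⟨Finset.mem_univ _, Or.inl h8⟩)
  · exact h4 n h8
  · rw [p2_comm] at h8
    rw [p2_eq_neg_three.1 h8]; exact h5

/-- a pure vector is determined by 28 coordinates -/
theorem pure_inj (h2 : (2 : F) ≠ 0) {m : D1} {x y : D1 → F} (hx : Pure F x) (hy : Pure F y) (hm : x m ≠ 0)
    (h : ∀ n, p2 n m = 1 ∨ p2 n m = 3 → x n = y n) : x = y := by
  have hmm : x m = y m := h m (Or.inr (p2_self m))
  have key1 : ∀ b, p2 b m = -1 → x b = y b := by
    intro b hb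
    have h1 : p2 (op b) m = 1 := by rw [p2_op, hb]; rfl
    obtain ⟨r, hr, c, hr1, hc⟩ := exists_mv h1
    have hop := mv_op hr hr1
    rw [op_op, ep_op] at hop
    have ex := sf_zero h2 hx hr hr1
    have ey := sf_zero h2 hy hr hr1
    have hbm : b ≠ m := by
      rintro rfl
      rw [p2_self] at hb
      omega
    have e3 : sf F (NM F r *ᵥ x) x - sf F (NM F r *ᵥ y) y = 0 := by rw [ex, ey, sub_zero]
    rw [sf_sum, sf_sum, ← Finset.sum_sub_distrib, Fintype.sum_eq_add (op b) (op m)] at e3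
    · rw [NM_mulVec hr hr1, NM_mulVec hr hop, NM_mulVec hr hr1, NM_mulVec hr hop, op_op, op_op, ep_op, ep_op, ← hmm] at e3
      push_cast at e3
      have h5 : (ep m : F) * (ep m : F) = 1 := by
        rw [← Int.cast_mul, ep_sq, Int.cast_one]
      have h6 : (2 * (c : F) * (ep b : F) * x m) * (x b - y b) = 0 := by
        linear_combination -e3 - (c : F) * (ep b : F) * (x b - y b) * x m * h5
      exact sub_eq_zero.1 ((mul_eq_zero.1 h6).resolve_left
        (mul_ne_zero (mul_ne_zero (mul_ne_zero h2 (cast_ne hc)) (cast_ne (ep_sq b))) hm))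
    · intro h4
      have h5 := congrArg op h4
      rw [op_op, op_op] at h5
      exact hbm h5
    · intro a ha
      by_contra hne
      have hex : (∃ (b' : D1) (c' : ℤ), mv r (nn b') = some (nn a, c')) := by
        by_contra hcon
        push Not at hcon
        have k1 : ∀ z : D1 → F, (NM F r *ᵥ z) a = 0 := by
          intro z
          by_contra hz
          obtain ⟨b', c', h4, -⟩ := NM_mulVec_ne hz
          exact hcon b' c' h4
        rw [k1, k1] at hne
        exact hne (by ring)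
      obtain ⟨b', c', h4⟩ := hex
      have h6 := pr_of hr (m := m) hr1 h4
      rw [h1, p2_self] at h6
      rw [NM_mulVec hr h4, NM_mulVec hr h4] at hne
      rcases p2_cases b' m with h7 | h7 | h7 | h7
      · have h8 := p2_eq_three.1 h7
        rw [h8, hr1, Option.some.injEq, Prod.mk.injEq] at h4
        exact ha.1 (nn_inj h4.1).symm
      · have h8 : p2 (op a) m = 1 := by rw [p2_op]; omega
        apply hne
        rw [h b' (Or.inl h7), h (op a) (Or.inl h8)]
        ring
      · have h8 : p2 m a = -3 := by rw [p2_comm]; omega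
        exact ha.2 (p2_eq_neg_three.1 h8)
      · rcases p2_cases a m with h8 | h8 | h8 | h8 <;> omega
  have key2 : x (op m) = y (op m) := by
    obtain ⟨c, hc⟩ := Mu.exists_nb m
    have ex := Tr.DD_diag (F := F) x x c
    have ey := Tr.DD_diag (F := F) y y c
    have hxx : DD F x x = 0 := hx
    have hyy : DD F y y = 0 := hy
    rw [hxx, Matrix.zero_apply] at ex
    rw [hyy, Matrix.zero_apply] at ey
    have e3 : ∑ a : D1, x a * ((ep a : ℤ) : F) * x (op a) * ((p2 a c : ℤ) : F) -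
        ∑ a : D1, y a * ((ep a : ℤ) : F) * y (op a) * ((p2 a c : ℤ) : F) = 0 := by
      linear_combination ex - ey
    rw [← Finset.sum_sub_distrib, Fintype.sum_eq_add m (op m) (ne_op m)] at e3
    · rw [op_op, ep_op, p2_op, hc, ← hmm] at e3
      push_cast at e3
      have h6 : (2 * (ep m : F) * x m) * (x (op m) - y (op m)) = 0 := by
        linear_combination e3
      exact sub_eq_zero.1 ((mul_eq_zero.1 h6).resolve_left (mul_ne_zero (mul_ne_zero h2 (cast_ne (ep_sq m))) hm))
    · intro a ha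
      rcases p2_cases a m with h8 | h8 | h8 | h8
      · exact absurd (p2_eq_three.1 h8) ha.1
      · have h9 : p2 (op a) m = -1 := by rw [p2_op, h8]
        rw [h a (Or.inl h8), key1 (op a) h9]
        ring
      · have h9 : p2 (op a) m = 1 := by rw [p2_op, h8]; rfl
        rw [key1 a h8, h (op a) (Or.inl h9)]
        ring
      · rw [p2_comm] at h8
        exact absurd (p2_eq_neg_three.1 h8) ha.2
  funext n
  rcases p2_cases n m with h8 | h8 | h8 | h8
  · exact h n (Or.inr h8)
  · exact h n (Or.inl h8)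
  · exact key1 n h8
  · rw [p2_comm] at h8
    rw [p2_eq_neg_three.1 h8]; exact key2

theorem card_pure [Finite F] (h2 : (2 : F) ≠ 0) :
    Nat.card {e : D1 → F // Pure F e ∧ e ≠ 0} ≤ 56 * Nat.card F ^ 28 := by
  classical
  have key : ∀ m : D1, Nat.card {e : D1 → F // Pure F e ∧ e m ≠ 0} ≤ Nat.card F ^ 28 := by
    intro m
    set S := Finset.univ.filter fun n : D1 => p2 n m = 1 ∨ p2 n m = 3 with hS
    have h1 : Nat.card (↥S → F) = Nat.card F ^ S.card := by
      rw [Nat.card_fun, Nat.card_eq_fintype_card (α := ↥S), Fintype.card_coe]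
    refine le_trans ?_ (Nat.pow_le_pow_right Nat.card_pos (card28 m))
    rw [← hS, ← h1]
    refine Nat.card_le_card_of_injective (fun f : {e : D1 → F // Pure F e ∧ e m ≠ 0} => fun n : ↥S => f.1 n.1) ?_
    rintro ⟨f, hf, hfm⟩ ⟨f', hf', hfm'⟩ h
    apply Subtype.ext
    exact pure_inj h2 hf hf' hfm fun n hn => congrFun h ⟨n, Finset.mem_filter.2 ⟨Finset.mem_univ _, hn⟩⟩
  have h3 : ∀ e : {e : D1 → F // Pure F e ∧ e ≠ 0}, ∃ m : D1, e.1 m ≠ 0 := by
    intro e
    by_contra hcon
    push Not at hcon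
    exact e.2.2 (funext hcon)
  choose μ hμ using h3
  have h4 : Nat.card {e : D1 → F // Pure F e ∧ e ≠ 0} ≤ Nat.card (Σ m : D1, {e : D1 → F // Pure F e ∧ e m ≠ 0}) := by
    refine Nat.card_le_card_of_injective (fun e => ⟨μ e, e.1, e.2.1, hμ e⟩) ?_
    intro e e' h
    have h5 := congrArg (fun z : (Σ m : D1, {e : D1 → F // Pure F e ∧ e m ≠ 0}) => z.2.1) h
    exact Subtype.ext h5
  refine h4.trans ?_
  rw [Nat.card_sigma]
  refine (Finset.sum_le_card_nsmul _ _ _ fun m _ => key m).trans ?_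
  rw [Finset.card_univ, ← Nat.card_eq_fintype_card, card_D1, smul_eq_mul]

/-- the set of triples -/
def TS (F : Type u) [Field F] : Set (Fin 3 → D1 → F) := {b | b 0 ≠ 0 ∧ DD F (b 1) (b 1) = DD F (b 0) (b 2)}

/-- **the number of triples** -/
theorem card_TS [Finite F] (h2 : (2 : F) ≠ 0) : Nat.card (TS F) ≤ Nat.card F ^ 124 + 56 * Nat.card F ^ 112 := by
  classical
  set q := Nat.card F with hq
  have hfin : Finite (D1 → F) := inferInstance
  have hV := card_V (F := F)
  -- the two parts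
  have h3 : Nat.card (TS F) ≤
      Nat.card ((Σ x : {e : D1 → F // ¬ Pure F e} × (D1 → F), {f : D1 → F // DD F x.1.1 f = DD F x.2 x.2}) ⊕
        (Σ x : {e : D1 → F // Pure F e ∧ e ≠ 0} × (D1 → F), {f : D1 → F // DD F x.1.1 f = DD F x.2 x.2})) := by
    refine Nat.card_le_card_of_injective (fun b => if hb : Pure F (b.1 0) then
      Sum.inr ⟨(⟨b.1 0, hb, b.2.1⟩, b.1 1), b.1 2, b.2.2.symm⟩ else Sum.inl ⟨(⟨b.1 0, hb⟩, b.1 1), b.1 2, b.2.2.symm⟩) ?_
    rintro ⟨b, hb⟩ ⟨b', hb'⟩ h
    have key : b 0 = b' 0 ∧ b 1 = b' 1 ∧ b 2 = b' 2 := by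
      dsimp only at h
      by_cases k1 : Pure F (b 0) <;> by_cases k2 : Pure F (b' 0)
      · rw [dif_pos k1, dif_pos k2, Sum.inr.injEq] at h
        have e1 := congrArg (fun z : (Σ x : {e : D1 → F // Pure F e ∧ e ≠ 0} × (D1 → F),
          {f : D1 → F // DD F x.1.1 f = DD F x.2 x.2}) => (z.1.1.1, z.1.2, z.2.1)) h
        simpa only [Prod.mk.injEq] using e1
      · rw [dif_pos k1, dif_neg k2] at h
        cases h
      · rw [dif_neg k1, dif_pos k2] at h
        cases h
      · rw [dif_neg k1, dif_neg k2, Sum.inl.injEq] at h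
        have e1 := congrArg (fun z : (Σ x : {e : D1 → F // ¬ Pure F e} × (D1 → F),
          {f : D1 → F // DD F x.1.1 f = DD F x.2 x.2}) => (z.1.1.1, z.1.2, z.2.1)) h
        simpa only [Prod.mk.injEq] using e1
    apply Subtype.ext
    funext i
    fin_cases i
    · exact key.1
    · exact key.2.1
    · exact key.2.2
  refine h3.trans ?_
  rw [Nat.card_sum]
  have := Fintype.ofFinite F
  have f1 : Fintype ({e : D1 → F // ¬ Pure F e} × (D1 → F)) := Fintype.ofFinite _
  have f2 : Fintype ({e : D1 → F // Pure F e ∧ e ≠ 0} × (D1 → F)) := Fintype.ofFinite _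
  refine Nat.add_le_add ?_ ?_
  · rw [Nat.card_sigma]
    refine (Finset.sum_le_card_nsmul _ _ _ fun x _ => card_fib h2 x.1.2 _).trans ?_
    rw [Finset.card_univ, ← Nat.card_eq_fintype_card, Nat.card_prod, hV, smul_eq_mul]
    have h4 : Nat.card {e : D1 → F // ¬ Pure F e} ≤ q ^ 56 := by
      rw [← hV]
      exact Nat.card_le_card_of_injective _ Subtype.val_injective
    calc Nat.card {e : D1 → F // ¬ Pure F e} * q ^ 56 * q ^ 12 ≤ q ^ 56 * q ^ 56 * q ^ 12 := by gcongr
      _ = q ^ 124 := by ring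
  · rw [Nat.card_sigma]
    refine (Finset.sum_le_card_nsmul _ _ _ fun x _ => card_fib_pure h2 x.1.2.1 x.1.2.2 _).trans ?_
    rw [Finset.card_univ, ← Nat.card_eq_fintype_card, Nat.card_prod, hV, smul_eq_mul]
    have h4 := card_pure (F := F) h2
    calc Nat.card {e : D1 → F // Pure F e ∧ e ≠ 0} * q ^ 56 * q ^ 28 ≤ (56 * q ^ 28) * q ^ 56 * q ^ 28 := by gcongr
      _ = 56 * q ^ 112 := by ring

end Cfsg.Agent.R2.T1.N6C
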